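import Cfsg.Agent.H62.SecKernel
import Cfsg.Agent.H633.Principal
import Cfsg.Agent.H719.HT.TrU

/-!
# S4933: principal blocks of quotients by central subgroups; descent from `GU_n` to `PSU_n` (helper695)

* `exists_comp_central` : `π : H → C` onto with central kernel, `ψ ∈ B_0(H)` trivial on it: `ψ = ψ' ∘ π`, `ψ' ∈ B_0(C)`;
* `tr_gu_irr` : `χ ∈ B_0(GU_n(q))` with irreducible restriction to `SU_n(q)` and trivial on the kernel of
  `SU_n(q) → PSU_n(q)`: `ψ ∈ B_0(PSU_n(q))` under `χ`, invariant under `GU_n(q)` and under the field automorphisms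
  which fix `χ` (no condition on `p` and `q + 1`).
-/

set_option autoImplicit false

open Cfsg Subgroup Matrix

namespace Cfsg.Agent.H695.LB.Desc

universe u v

section general

variable {p : ℕ} [hp : Fact p.Prime] {M : Ideal AlgInt}

/-- **Central quotients.** -/
theorem exists_comp_central (hM : IsPModular p M) {H : Type u} [Group H] [Finite H] {C : Type v} [Group C] {π : H →* C}
    (hπ : Function.Surjective π) (hZ : π.ker ≤ Subgroup.center H) {ψ : IrrCharacter H}
    (hψ : ψ ∈ principalBlock M H) (hk : ∀ z : H, π z = 1 → (ψ : H → ℂ) z = (ψ : H → ℂ) 1) :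
    ∃ ψ' : IrrCharacter C, ψ' ∈ principalBlock M C ∧ (ψ : H → ℂ) = fun h => (ψ' : C → ℂ) (π h) := by
  classical
  obtain ⟨P0⟩ : Nonempty (Sylow p π.ker) := inferInstance
  let U : Subgroup H := (P0 : Subgroup π.ker).map π.ker.subtype
  have hUk : U ≤ π.ker := by
    rintro _ ⟨x, -, rfl⟩
    exact x.2
  have hUc : U ≤ Subgroup.center H := hUk.trans hZ
  have hUn : U.Normal := ⟨fun x hx g => by
    have h1 : g * x * g⁻¹ = x := by
      rw [Subgroup.mem_center_iff.1 (hUc hx) g, mul_inv_cancel_right]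
    rw [h1]
    exact hx⟩
  have hUp : IsPGroup p U := P0.2.map π.ker.subtype
  obtain ⟨χ', hχ'⟩ := H633.Principal.exists_infl U ψ fun n hn => hk n (hUk hn)
  have h1 : χ' ∈ principalBlock M (H ⧸ U) := by
    refine (H62.SecKernel.infl_mem_iff hM hUc hUp χ').1 ?_
    rw [hχ'] at hψ
    exact hψ
  let π' : H ⧸ U →* C := QuotientGroup.lift U π hUk
  have hπ' : Function.Surjective π' := by
    intro c
    obtain ⟨h, rfl⟩ := hπ c
    exact ⟨(h : H ⧸ U), rfl⟩
  have hK : ¬ p ∣ Nat.card π'.ker := by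
    intro hd
    obtain ⟨⟨y, hy⟩, hyo⟩ := exists_prime_orderOf_dvd_card' p hd
    obtain ⟨x, rfl⟩ := QuotientGroup.mk_surjective y
    have hx : x ∈ π.ker := hy
    have hxp : x ^ p ∈ U := by
      have h2 := pow_orderOf_eq_one (⟨(x : H ⧸ U), hy⟩ : π'.ker)
      rw [hyo] at h2
      have h3 : ((x : H ⧸ U)) ^ p = 1 := congrArg Subtype.val h2
      rw [← QuotientGroup.mk_pow] at h3
      exact (QuotientGroup.eq_one_iff _).1 h3
    have hxU : x ∈ U := by
      let X : π.ker := ⟨x, hx⟩
      have hX : IsPGroup p (Subgroup.zpowers X) := by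
        obtain ⟨w, hw, hwx⟩ := hxp
        obtain ⟨k, hk'⟩ := P0.2 ⟨w, hw⟩
        have h4 : X ^ p ^ (k + 1) = 1 := by
          apply Subtype.ext
          have h5 : w ^ p ^ k = 1 := congrArg Subtype.val hk'
          change x ^ p ^ (k + 1) = 1
          rw [pow_succ', pow_mul, ← hwx]
          exact congrArg Subtype.val h5
        exact IsPGroup.of_card (n := (Nat.card (Subgroup.zpowers X)).factorization p) (by
          rw [Nat.card_zpowers]
          obtain ⟨j, -, hj⟩ := (Nat.dvd_prime_pow hp.out).1 (orderOf_dvd_of_pow_eq_one h4)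
          rw [hj, hp.out.factorization_pow, Finsupp.single_eq_same])
      have hPn : (P0 : Subgroup π.ker).Normal := ⟨fun a ha g => by
        have h6 : g * a * g⁻¹ = a := by
          apply Subtype.ext
          change (g : H) * a * (g : H)⁻¹ = a
          rw [Subgroup.mem_center_iff.1 (hZ a.2) g, mul_inv_cancel_right]
        rw [h6]
        exact ha⟩
      have h7 : IsPGroup p ((P0 : Subgroup π.ker) ⊔ Subgroup.zpowers X : Subgroup π.ker) :=
        P0.2.to_sup_of_normal_left hX
      have h8 := P0.is_maximal' h7 le_sup_left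
      have h9 : X ∈ (P0 : Subgroup π.ker) := by
        rw [← h8]
        exact mem_sup_right (Subgroup.mem_zpowers X)
      exact ⟨X, h9, rfl⟩
    have h10 : (⟨(x : H ⧸ U), hy⟩ : π'.ker) = 1 := Subtype.ext ((QuotientGroup.eq_one_iff x).2 hxU)
    rw [h10, orderOf_one] at hyo
    exact hp.out.one_lt.ne hyo
  obtain ⟨ψ', h2, h3⟩ := Blocks.PrincipalInflate.exists_comp hM hπ' hK h1
  refine ⟨ψ', h2, ?_⟩
  rw [hχ']
  funext h
  exact congrFun h3 (h : H ⧸ U)

end general

section psu

open Cfsg.Agent.H107.AutU Cfsg.Agent.ClassicalGeometry.PSUAutCount Cfsg.Agent.Schreier.PSU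
open Cfsg.Agent.LieClassical.HermBasic Cfsg.Agent.LieClassical.HermSiegel
open Cfsg.Agent.ClassicalGeometry.UnitAutBasic (pr pr_surjective)
open Cfsg.Agent.H624.XZ

variable {F : Type u} [Field F] [Fintype F] {q n p : ℕ} [hp : Fact p.Prime] {M : Ideal AlgInt}

omit [Fintype F] in
theorem ker_le_center : (toPSU n F q).ker ≤ Subgroup.center (dt n F q).ker := by
  intro x hx
  have h1 : toSU n F q x ∈ Subgroup.center (SU n F q) := (QuotientGroup.eq_one_iff _).1 hx
  rw [Subgroup.mem_center_iff] at h1 ⊢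
  intro g
  apply toSU_injective
  rw [map_mul, map_mul]
  exact h1 _

/-- **from `B₀(GU_n)` to `B₀(PSU_n)`**, all `p` -/
theorem tr_gu_irr (hM : IsPModular p M) {χ : IrrCharacter (GU n F q)} (hχ : χ ∈ principalBlock M (GU n F q))
    (hirr : IsIrrCharacter (dt n F q).ker (fun s => (χ : GU n F q → ℂ) s))
    (hk : ∀ s : (dt n F q).ker, toPSU n F q s = 1 → (χ : GU n F q → ℂ) s = (χ : GU n F q → ℂ) 1) :
    ∃ ψ : IrrCharacter (PSU n F q), ψ ∈ principalBlock M (PSU n F q) ∧
      (∀ s : (dt n F q).ker, (ψ : PSU n F q → ℂ) (toPSU n F q s) = (χ : GU n F q → ℂ) s) ∧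
      charDegree (ψ : PSU n F q → ℂ) = charDegree (χ : GU n F q → ℂ) ∧
      (∀ (A : GU n F q) (x : PSU n F q), (ψ : PSU n F q → ℂ) (f₁ A x) = (ψ : PSU n F q → ℂ) x) ∧
      (∀ ρ : F ≃+* F, (∀ g : GU n F q, (χ : GU n F q → ℂ) (mapGU ρ g) = (χ : GU n F q → ℂ) g) →
        ∀ x : PSU n F q, (ψ : PSU n F q → ℂ) (f₂ ρ x) = (ψ : PSU n F q → ℂ) x) := by
  obtain ⟨ψ, h1, h2'⟩ := exists_comp_central hM (toPSU_surjective (n := n) (F := F) (q := q)) ker_le_center
    (H685.Alperin.restrict_mem hM hχ hirr) (fun z hz => by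
      change (χ : GU n F q → ℂ) z = (χ : GU n F q → ℂ) ((1 : (dt n F q).ker) : GU n F q)
      rw [hk z hz]
      rfl)
  have h2 : ∀ s : (dt n F q).ker, (ψ : PSU n F q → ℂ) (toPSU n F q s) = (χ : GU n F q → ℂ) s :=
    fun s => (congrFun h2' s).symm
  refine ⟨ψ, h1, h2, ?_, ?_, ?_⟩
  · have h3 := h2 1
    rw [map_one] at h3
    change ⌊((ψ : PSU n F q → ℂ) 1).re⌋₊ = ⌊((χ : GU n F q → ℂ) 1).re⌋₊
    rw [h3]
    rfl
  · intro A x
    obtain ⟨s, rfl⟩ := toPSU_surjective x
    have h3 : (f₁ A : MulAut (PSU n F q)) (toPSU n F q s) =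
        toPSU n F q ⟨A * s * A⁻¹, (inferInstance : (dt n F q).ker.Normal).conj_mem _ s.2 A⟩ := by
      change toAut A 1 (pr n F q (toSU n F q s)) = pr n F q (toSU n F q _)
      rw [toAut_pr']
      congr 1
    rw [h3, h2, h2]
    exact Characters.Core.isIrr_isClassFunction χ.2 _ _
  · intro ρ hρ x
    obtain ⟨s, rfl⟩ := toPSU_surjective x
    have hmem : mapGU ρ (s : GU n F q) ∈ (dt n F q).ker := by
      rw [MonoidHom.mem_ker]
      apply Units.ext
      have h4 : (gm (s : GU n F q)).det = 1 := congrArg Units.val s.2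
      change (Matrix.GeneralLinearGroup.map (ρ : F →+* F) ((s : GU n F q) : GL (Fin n) F) : Matrix (Fin n) (Fin n) F).det = 1
      change ((ρ : F →+* F).mapMatrix (gm (s : GU n F q))).det = 1
      rw [← RingHom.map_det, h4, map_one]
    have h3 : (f₂ ρ : MulAut (PSU n F q)) (toPSU n F q s) = toPSU n F q ⟨mapGU ρ s, hmem⟩ := by
      change toAut 1 ρ (pr n F q (toSU n F q s)) = pr n F q (toSU n F q _)
      rw [toAut_pr']
      congr 1
      apply ext_act
      intro x
      have hx : x = fun i => ρ ((fun j => ρ.symm (x j)) i) := by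
        funext i
        simp
      rw [hx, act_semiConj_field]
      exact (gm_mapGU ρ (s : GU n F q) _).symm
    rw [h3, h2, h2]
    exact hρ _

end psu

end Cfsg.Agent.H695.LB.Desc
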