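import Cfsg.Agent.S0886
import Cfsg.Agent.S0965
import Cfsg.Agent.Blocks.PRegular
import Cfsg.Agent.Blocks.PrincipalSection
import Cfsg.Agent.H133.PB.Basic
import Cfsg.Agent.H316.HT.Defs

/-!
# S4933: extension to `N P` in the principal block (helper695)

* `mem_of_over` : `N` normal of index a power of `p`: a character over a member of `B_0(N)` is in `B_0(G)`;
* `exists_ext` : `ψ ∈ B_0(N)` invariant, `G / N` a cyclic `p`-group: `ψ` extends to `ξ ∈ B_0(G)`;
* `exists_ext_sup` : the same for `N ⊔ P`, `P` a `p`-group with `N P / N` cyclic;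
* `cyc_sup` : `N P / N` is cyclic if `P / (P ∩ N)` is.
-/

set_option autoImplicit false

open Cfsg Subgroup
open Cfsg.Agent.H316.HT Cfsg.Agent.Characters.Core Cfsg.Agent.Blocks.PrincipalSection Cfsg.Agent.Blocks.Basic
open Cfsg.Agent.Blocks.Local

namespace Cfsg.Agent.H695.LB.Ext

universe u v

variable {p : ℕ} [hp : Fact p.Prime] {M : Ideal AlgInt}

/-- a `p`-regular element lies in a normal subgroup with `p`-group quotient -/
theorem mem_of_isPRegular {G : Type u} [Group G] (N : Subgroup G) [N.Normal] (hN : IsPGroup p (G ⧸ N)) {g : G}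
    (hg : IsPRegular p g) : g ∈ N := by
  obtain ⟨k, hk⟩ := hN (g : G ⧸ N)
  have h1 : orderOf (g : G ⧸ N) ∣ orderOf g := orderOf_map_dvd (QuotientGroup.mk' N) g
  obtain ⟨j, -, hj⟩ := (Nat.dvd_prime_pow hp.out).1 (orderOf_dvd_of_pow_eq_one hk)
  rcases Nat.eq_zero_or_pos j with rfl | hj0
  · rw [pow_zero, orderOf_eq_one_iff] at hj
    exact (QuotientGroup.eq_one_iff g).1 hj
  · exact absurd ((dvd_pow_self p hj0.ne').trans (hj ▸ h1)) hg

/-- **characters over the principal block, `p`-power index** -/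
theorem mem_of_over (hM : IsPModular p M) {G : Type u} [Group G] [Fintype G] (N : Subgroup G) [N.Normal] [Fintype N]
    (hN : IsPGroup p (G ⧸ N)) (ξ : IrrCharacter G) {θ : IrrCharacter N} (hθ : θ ∈ principalBlock M N)
    (h : classInner (fun n : N => (ξ : G → ℂ) n) (θ : N → ℂ) ≠ 0) : ξ ∈ principalBlock M G := by
  have hMp : M.IsPrime := hM.2.1.isPrime
  have h1N : (⟨fun _ => 1, isIrrCharacter_one⟩ : IrrCharacter N) ∈ principalBlock M N := one_mem_principalBlock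
  have h1G : (⟨fun _ => 1, isIrrCharacter_one⟩ : IrrCharacter G) ∈ principalBlock M G := one_mem_principalBlock
  have hov : classInner (fun n : N => ((⟨fun _ => 1, isIrrCharacter_one⟩ : IrrCharacter G) : G → ℂ) n)
      ((⟨fun _ => 1, isIrrCharacter_one⟩ : IrrCharacter N) : N → ℂ) ≠ 0 := by
    have h2 := classInner_irr_self (G := N) (χ := fun _ => 1) isIrrCharacter_one
    change classInner (fun _ : N => (1 : ℂ)) (fun _ => 1) ≠ 0
    rw [h2]
    exact one_ne_zero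
  have k1 := (S0965.result p M hM N (principalBlock M G) isPBlock_principalBlock (principalBlock M N)
    isPBlock_principalBlock).1 ⟨_, h1G, _, h1N, hov⟩ _ h1G θ hθ
  have hξ : ξ ∈ blockOf M (ξ : G → ℂ) := sameBlock_refl _
  have k2 := (S0965.result p M hM N (blockOf M (ξ : G → ℂ)) ⟨ξ, rfl⟩ (principalBlock M N)
    isPBlock_principalBlock).1 ⟨ξ, hξ, θ, hθ, h⟩ ξ hξ θ hθ
  refine Blocks.PRegular.sameBlock_of_isPRegular hM isIrrCharacter_one ξ.2 fun g hg => ?_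
  have hgN := mem_of_isPRegular N hN hg
  have h3 := memLocalIdeal_sub (k1 ⟨g, hgN⟩) (k2 ⟨g, hgN⟩)
  rw [sub_sub_sub_cancel_right] at h3
  exact h3

/-- **Extension in the principal block**, cyclic `p`-group quotient -/
theorem exists_ext (hM : IsPModular p M) {G : Type u} [Group G] [Finite G] (N : Subgroup G) [hNn : N.Normal]
    (hN : IsPGroup p (G ⧸ N)) (hcyc : IsCyclic (G ⧸ N)) (ψ : IrrCharacter N) (hψ : ψ ∈ principalBlock M N)
    (hinv : ∀ (g : G) (n : N), (ψ : N → ℂ) ⟨g * n * g⁻¹, hNn.conj_mem (n : G) n.2 g⟩ = (ψ : N → ℂ) n) :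
    ∃ ξ : IrrCharacter G, ξ ∈ principalBlock M G ∧ ∀ n : N, (ξ : G → ℂ) n = (ψ : N → ℂ) n := by
  classical
  have := Fintype.ofFinite G
  have := Fintype.ofFinite N
  obtain ⟨ξ, h1, h2⟩ := S0886.result N hcyc (ψ : N → ℂ) ψ.2 hinv
  refine ⟨⟨ξ, h1⟩, mem_of_over hM N hN _ hψ ?_, h2⟩
  have h3 : (fun n : N => ((⟨ξ, h1⟩ : IrrCharacter G) : G → ℂ) n) = (ψ : N → ℂ) := funext h2
  rw [h3, classInner_irr_self ψ.2]
  exact one_ne_zero

theorem exists_mul {A : Type u} [Group A] (N : Subgroup A) [N.Normal] (P : Subgroup A) {y : A} (hy : y ∈ N ⊔ P) :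
    ∃ n ∈ N, ∃ x ∈ P, n * x = y := by
  rw [← SetLike.mem_coe, Subgroup.normal_mul] at hy
  exact Set.mem_mul.1 hy

/-- **Extension in the principal block** to `N ⊔ P` -/
theorem exists_ext_sup (hM : IsPModular p M) {A : Type u} [Group A] [Finite A] (N : Subgroup A) [hNn : N.Normal]
    (P : Subgroup A) (hP : IsPGroup p P) (hcyc : IsCyclic ((N ⊔ P : Subgroup A) ⧸ N.subgroupOf (N ⊔ P))) (ψ : IrrCharacter N)
    (hψ : ψ ∈ principalBlock M N)
    (hinv : ∀ x ∈ P, ∀ n : N, (ψ : N → ℂ) ⟨x * n * x⁻¹, hNn.conj_mem (n : A) n.2 x⟩ = (ψ : N → ℂ) n) :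
    ∃ ξ : IrrCharacter (N ⊔ P : Subgroup A), ξ ∈ principalBlock M (N ⊔ P : Subgroup A) ∧
      ∀ n : N, (ξ : (N ⊔ P : Subgroup A) → ℂ) ⟨n, mem_sup_left n.2⟩ = (ψ : N → ℂ) n := by
  classical
  have hMp : M.IsPrime := hM.2.1.isPrime
  obtain ⟨H, hH⟩ : ∃ H : Subgroup A, H = N ⊔ P := ⟨_, rfl⟩
  rw [← hH] at hcyc
  have hNH : N ≤ H := hH ▸ le_sup_left
  have hPH : P ≤ H := hH ▸ le_sup_right
  -- the map `P → H / N`
  let f : P →* H ⧸ N.subgroupOf H := (QuotientGroup.mk' _).comp (Subgroup.inclusion hPH)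
  have hfs : Function.Surjective f := by
    intro y
    obtain ⟨⟨y, hy⟩, rfl⟩ := QuotientGroup.mk_surjective y
    have hy' : y ∈ N ⊔ P := hH ▸ hy
    obtain ⟨n, hn, x, hx, rfl⟩ := exists_mul N P hy'
    refine ⟨⟨x, hx⟩, ?_⟩
    refine QuotientGroup.eq.2 ?_
    rw [mem_subgroupOf]
    change x⁻¹ * (n * x) ∈ N
    have := hNn.conj_mem n hn x⁻¹
    rwa [inv_inv, mul_assoc] at this
  have hpg : IsPGroup p (H ⧸ N.subgroupOf H) := hP.of_surjective f hfs
  -- the character of `N` as a subgroup of `H`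
  let e : N.subgroupOf H ≃* N := Subgroup.subgroupOfEquivOfLe hNH
  obtain ⟨ξ, h1, h2⟩ := exists_ext hM (N.subgroupOf H) hpg hcyc
    ⟨fun n => (ψ : N → ℂ) (e n), isIrr_comp e.toMonoidHom e.surjective ψ.2⟩
    (H133.PB.mem_principalBlock_comp e.toMonoidHom e.surjective hψ) (by
      rintro ⟨g, hg⟩ n
      have hg' : g ∈ N ⊔ P := hH ▸ hg
      obtain ⟨m, hm, x, hx, rfl⟩ := exists_mul N P hg'
      have h3 := hinv x hx (e n)
      change (ψ : N → ℂ) _ = (ψ : N → ℂ) (e n)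
      rw [← h3]
      have h4 := isIrr_isClassFunction ψ.2 (⟨x * (e n : A) * x⁻¹, hNn.conj_mem (e n : A) (e n).2 x⟩ : N) ⟨m, hm⟩
      rw [← h4]
      refine congrArg (ψ : N → ℂ) (Subtype.ext ?_)
      change m * x * (n : A) * (m * x)⁻¹ = m * (x * (n : A) * x⁻¹) * m⁻¹
      group)
  subst hH
  exact ⟨ξ, h1, fun n => h2 ⟨⟨n, mem_sup_left n.2⟩, mem_subgroupOf.2 n.2⟩⟩

/-- cyclicity of `(N ⊔ P) / N` from that of `P / (P ∩ N)` -/
theorem cyc_sup {A : Type u} [Group A] (N : Subgroup A) [hNn : N.Normal] (P : Subgroup A)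
    (h : IsCyclic (P ⧸ N.subgroupOf P)) : IsCyclic ((N ⊔ P : Subgroup A) ⧸ N.subgroupOf (N ⊔ P)) := by
  let f : P →* (N ⊔ P : Subgroup A) ⧸ N.subgroupOf (N ⊔ P) :=
    (QuotientGroup.mk' _).comp (Subgroup.inclusion le_sup_right)
  have hk : N.subgroupOf P ≤ f.ker := by
    intro x hx
    rw [MonoidHom.mem_ker]
    exact (QuotientGroup.eq_one_iff _).2 (mem_subgroupOf.2 (mem_subgroupOf.1 hx))
  refine isCyclic_of_surjective (QuotientGroup.lift (N.subgroupOf P) f hk) ?_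
  intro y
  obtain ⟨⟨y, hy⟩, rfl⟩ := QuotientGroup.mk_surjective y
  obtain ⟨n, hn, x, hx, rfl⟩ := exists_mul N P hy
  refine ⟨((⟨x, hx⟩ : P) : P ⧸ N.subgroupOf P), ?_⟩
  refine QuotientGroup.eq.2 ?_
  rw [mem_subgroupOf]
  change x⁻¹ * (n * x) ∈ N
  have := hNn.conj_mem n hn x⁻¹
  rwa [inv_inv, mul_assoc] at this

end Cfsg.Agent.H695.LB.Ext
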